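import Cfsg.Agent.H65.Laced

/-!
# Orthogonal roots in a simply laced system of type `D_n`, `n ≥ 5` (helper850, S3539)

* `Good B Φ r s` : there is `d` with `(d, s) = 1`, `(d, r) = 0` (criterion of `H65.Laced.SSys.lc_orth`)
* `Bad B Φ α β` : configuration in `D₅` for the remaining pairs `±e_i + e_j`, `± e_i - e_j`
* `lc_bad` : lifts of root elements for such a pair commute
-/

set_option autoImplicit false
set_option linter.unusedSectionVars false

namespace Cfsg.Agent.H850.Cod.BadPair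

open scoped commutatorElement
open Cfsg.Agent.OddHalf.SL.Defs Cfsg.Agent.KFacts.Mult.Calc Cfsg.Agent.H65.Laced

variable {X L V F : Type*} [Group X] [Group L] [AddCommGroup V] [Field F]

/-- the orthogonal pair `(r, s)` can be separated -/
def Good (B : V → V → ℤ) (Φ : Set V) (r s : V) : Prop := ∃ d ∈ Φ, B d s = 1 ∧ B d r = 0

/-- the configuration for the other orthogonal pairs -/
def Bad (B : V → V → ℤ) (Φ : Set V) (α β : V) : Prop :=
  ∃ ρ ∈ Φ, ∃ u ∈ Φ, B ρ β = -1 ∧ B ρ α = 1 ∧ B u β = 1 ∧ B ρ u = -1 ∧ B u α = -1 ∧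
    Good B Φ (ρ + u) β ∧ Good B Φ (β - α + ρ) (β - u)

variable {B : V → V → ℤ} {Φ : Set V} {N : V → V → F} {x : V → F → L}

theorem lc_bad (S : SSys B Φ N x) {π : X →* L} (h : CE π) {α β : V} (hα : α ∈ Φ) (hβ : β ∈ Φ) (h0 : B α β = 0)
    (hb : Bad B Φ α β) (a b : F) : h.lc (x α a) (x β b) = 1 := by
  have hR := S.roots
  obtain ⟨ρ, hρ, u, hu, h1, h2, h3, h4, h5, ⟨d, hd, hd1, hd2⟩, ⟨d', hd', hd3, hd4⟩⟩ := hb
  by_cases ha : a = 0
  · rw [ha, S.zero hα, h.lc_one_left]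
  -- the inner products
  have sy := hR.symm
  have tα := hR.two α hα
  have tβ := hR.two β hβ
  have tρ := hR.two ρ hρ
  have tu := hR.two u hu
  have s1 : B β α = 0 := by rw [sy]; exact h0
  have s2 : B β ρ = -1 := by rw [sy]; exact h1
  have s3 : B α ρ = 1 := by rw [sy]; exact h2
  have s4 : B β u = 1 := by rw [sy]; exact h3
  have s5 : B u ρ = -1 := by rw [sy]; exact h4
  have s6 : B α u = -1 := by rw [sy]; exact h5
  -- `τ = α - ρ`, `σ = β - τ`
  have hτ : α - ρ ∈ Φ := hR.sub_mem hα hρ s3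
  have bτβ : B (α - ρ) β = 1 := by rw [hR.sub_left, h0, h1]; norm_num
  have hσ : β - (α - ρ) ∈ Φ := hR.sub_mem hβ hτ (by rw [sy]; exact bτβ)
  have eσ : β - (α - ρ) = β - α + ρ := by abel
  rw [eσ] at hσ
  set σ : V := β - α + ρ with hσdef
  set τ : V := α - ρ with hτdef
  have bρτ : B ρ τ = -1 := by rw [hτdef, hR.sub_right, h2, tρ]; norm_num
  have e1 : ρ + τ = α := by rw [hτdef]; abel
  have bσ : ∀ z, B σ z = B β z - B α z + B ρ z := fun z => by rw [hσdef, hR.add_left, hR.sub_left]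
  have bστ : B σ τ = -1 := by
    rw [bσ, sy β τ, bτβ, hτdef, hR.sub_right, hR.sub_right, tα, s3, h2, tρ]; norm_num
  have e2 : σ + τ = β := by rw [hσdef, hτdef]; abel
  have bσρ : B σ ρ = 0 := by rw [bσ, s2, s3, tρ]; norm_num
  have bσα : B σ α = -1 := by rw [bσ, s1, tα, h2]; norm_num
  -- `w = β - u`, `μ = ρ + u`, `u₂ = w - α`
  have hw : β - u ∈ Φ := hR.sub_mem hβ hu s4
  set w : V := β - u with hwdef
  have bw : ∀ z, B w z = B β z - B u z := fun z => by rw [hwdef, hR.sub_left]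
  have bwu : B w u = -1 := by rw [bw, s4, tu]; norm_num
  have e3 : w + u = β := by rw [hwdef]; abel
  have bwρ : B w ρ = 0 := by rw [bw, s2, s5]; norm_num
  have hμ : ρ + u ∈ Φ := hR.add ρ hρ u hu h4
  set μ : V := ρ + u with hμdef
  have bμ : ∀ z, B μ z = B ρ z + B u z := fun z => by rw [hμdef, hR.add_left]
  have bμβ : B μ β = 0 := by rw [bμ, h1, h3]; norm_num
  have bμα : B μ α = 0 := by rw [bμ, h2, h5]; norm_num
  have bwα : B w α = 1 := by rw [bw, s1, h5]; norm_num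
  have hu2 : w - α ∈ Φ := hR.sub_mem hw hα bwα
  set u₂ : V := w - α with hu2def
  have bαu2 : B α u₂ = -1 := by rw [hu2def, hR.sub_right, sy α w, bwα, tα]; norm_num
  have e4 : α + u₂ = w := by rw [hu2def]; abel
  have bμu2 : B μ u₂ = -1 := by
    rw [hu2def, hR.sub_right, bμα, sy μ w, bw, sy β μ, bμβ, sy u μ, bμ, h4, tu]; norm_num
  have e5 : μ + u₂ = σ := by rw [hμdef, hu2def, hwdef, hσdef]; abel
  have bσw : B σ w = 0 := by
    rw [sy, bw, sy β σ, sy u σ, bσ, bσ, tβ, h0, h1, s4, s6, h4]; norm_num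
  -- the elements
  have nρτ := S.ne ρ hρ τ hτ bρτ
  have nστ := S.ne σ hσ τ hτ bστ
  have nwu := S.ne w hw u hu bwu
  have nαu2 := S.ne α hα u₂ hu2 bαu2
  have nσα := S.ne σ hσ α hα bσα
  set r1 : F := (N ρ τ)⁻¹ * a with hr1
  set s0 : F := (N σ τ)⁻¹ * b with hs0
  set w1 : F := (N w u)⁻¹ * b with hw1
  set y : F := (N α u₂)⁻¹ * a⁻¹ * w1 with hy
  have c1 : ⁅x ρ r1, x τ 1⁆ = x α a := by
    rw [S.comm ρ hρ τ hτ bρτ, e1, mul_one, hr1, mul_inv_cancel_left₀ nρτ]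
  have c2 : ⁅x σ s0, x τ 1⁆ = x β b := by
    rw [S.comm σ hσ τ hτ bστ, e2, mul_one, hs0, mul_inv_cancel_left₀ nστ]
  have c3 : ⁅x w w1, x u 1⁆ = x β b := by
    rw [S.comm w hw u hu bwu, e3, mul_one, hw1, mul_inv_cancel_left₀ nwu]
  have c4 : ⁅x ρ r1, x u 1⁆ = x μ (N ρ u * (r1 * 1)) := S.comm ρ hρ u hu h4 _ _
  have c5 : ⁅x α a, x u₂ y⁆ = x w w1 := by
    rw [S.comm α hα u₂ hu2 bαu2, e4, hy]
    congr 1
    field_simp
  have c6 : ⁅x μ (N ρ u * (r1 * 1)), x u₂ y⁆ = x σ (N μ u₂ * (N ρ u * (r1 * 1) * y)) := by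
    rw [S.comm μ hμ u₂ hu2 bμu2, e5]
  set m : F := N ρ u * (r1 * 1) with hm
  set v : F := N μ u₂ * (m * y) with hv
  -- the three Hall–Witt identities
  have I1 := h.hw (a := x σ s0) (b := x τ 1) (c := x ρ r1) (S.one ρ hρ σ hσ (by rw [sy, bσρ]) _ _)
  rw [c1, c2] at I1
  have g1 : h.lc (x μ m) (x β b) = 1 := S.lc_orth h hμ hβ bμβ hd hd1 hd2 _ _
  have I2 := h.hw (a := x w w1) (b := x u 1) (c := x ρ r1) (S.one ρ hρ w hw (by rw [sy, bwρ]) _ _)
  rw [c3, c4, g1, mul_one] at I2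
  have g2 : h.lc (x σ v) (x w w1) = 1 := S.lc_orth h hσ hw bσw hd' hd3 hd4 _ _
  have I3 := h.hw (a := x α a) (b := x u₂ y) (c := x μ m) (S.one μ hμ α hα (by rw [bμα]) _ _)
  rw [c5, c6, g2, mul_one] at I3
  rw [h.lc_swap (x μ m) (x w w1), I3, ← h.lc_swap (x α a) (x σ v)] at I2
  rw [I2] at I1
  -- `v = s0`
  have hvs : v = s0 := by
    have e6 := congrArg π I1
    rw [map_mul, h.map_lc, h.map_lc, h.map_lc, commutatorElement_eq_one_iff_commute.2 (S.one α hα β hβ h0.ge a b),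
      mul_one, S.comm σ hσ α hα bσα, S.comm σ hσ α hα bσα] at e6
    have e7 := S.injective (hR.add σ hσ α hα bσα) e6
    exact mul_right_cancel₀ ha (mul_left_cancel₀ nσα e7)
  rw [hvs] at I1
  exact (left_eq_mul.1 I1)

end Cfsg.Agent.H850.Cod.BadPair
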