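import Cfsg.Agent.H850.Cod.LiftJ

/-!
# Central extensions of the standard Levi subgroups `D₅ ⊂ E₆` (helper850, S3539)
-/

set_option autoImplicit false
set_option linter.unusedSectionVars false

universe u v

namespace Cfsg.Agent.H850.Cod.LiftD

open CoxeterSystem Cfsg.Agent.ChevalleyStructure.CoxeterGeom Cfsg.Agent.Tits.Roots Cfsg.Agent.Tits.Core
  Cfsg.Agent.Tits.RootComb Cfsg.Agent.Nodes.Comb Cfsg.Agent.Nodes.Reps Cfsg.Agent.Nodes.BNOf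
  Cfsg.Agent.Nodes.StabComb Cfsg.Agent.Nodes.Bruhat Cfsg.Agent.Nodes.LeviDec Cfsg.Agent.Nodes.SubComb
  Cfsg.Agent.Nodes.Sub Cfsg.Agent.Nodes.Unique Cfsg.Agent.Nodes.CardSup Cfsg.Agent.Nodes.LeviStd
  Cfsg.Agent.OddHalf.SL.Index Cfsg.Agent.OddHalf.SL Cfsg.Agent.KFacts
open Cfsg.Lie Cfsg.Agent.ChevalleyStructure.RootVecTab Cfsg.Agent.ChevalleyStructure.RootVec
  Cfsg.Agent.ChevalleyStructure.Elts Cfsg.Agent.ChevalleyStructure Cfsg.Agent.Nodes.RGDChev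
  Cfsg.Agent.ChevalleyStructure.CoxeterGeomTypes
open Cfsg.Agent.OddHalf.SL.Defs Cfsg.Agent.KFacts.Mult.Calc Cfsg.Agent.H65.Laced Cfsg.Agent.H850.Cod.Filt
  Cfsg.Agent.H65.UnivE Cfsg.Agent.H850.Cod.Levi Cfsg.Agent.H850.Cod.Lift Cfsg.Agent.H850.Cod.BadPair
  Cfsg.Agent.KFacts.Mult.LacedE Cfsg.Agent.KFacts.Mult.LacedRGD Cfsg.Agent.H850.Cod.LiftJ

/-- the Levi subsystem in `E₆` -/
abbrev MD (f : Fin 5 ↪ Fin 6) : CoxeterMatrix (Fin 5) := leviMatrix f CoxeterMatrix.E₆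

/-- its Cartan matrix -/
abbrev AD (f : Fin 5 ↪ Fin 6) (i j : Fin 5) : ℤ := cartanOf chevE6 6 (f i) (f j)

theorem hpE6 : IsType chevE6 6 CoxeterMatrix.E₆ := typE6.hp

theorem isCartanD (f : Fin 5 ↪ Fin 6) : IsCartan (MD f) (AD f) := levi_isCartan f typE6.hp.isCartan

/-- the vector in the coordinates of the subsystem -/
def cv (f : Fin 5 ↪ Fin 6) (n : ℕ) (j : Fin 5) : ℤ := vec chevE6 6 n (f j)

theorem isRoot_iota' (f : Fin 5 ↪ Fin 6) {c : Fin 5 → ℤ} : IsRoot (MD f).toCoxeterSystem (isCartanD f) c ↔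
    IsRoot CoxeterMatrix.E₆.toCoxeterSystem hpE6.isCartan (io f c) := by
  have hW : Finite CoxeterMatrix.E₆.Group := finite_W hpE6 CoxeterMatrix.E₆.toCoxeterSystem
  constructor
  · intro hc
    exact (levi_subSys (cs := CoxeterMatrix.E₆.toCoxeterSystem) (h := hpE6.isCartan) f).isRoot_iota hc
  · intro hc
    refine (levi_subSys (cs := CoxeterMatrix.E₆.toCoxeterSystem) (h := hpE6.isCartan) f).isRoot_of_iota
      (MD f).toCoxeterSystem (isCartanD f) ?_ hc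
    intro c hc
    obtain ⟨d, hd, hs⟩ := levi_base (cs := CoxeterMatrix.E₆.toCoxeterSystem) (h := hpE6.isCartan) f _ hc 1 one_pos c
      (one_smul _ _)
    rwa [(levi_subSys (cs := CoxeterMatrix.E₆.toCoxeterSystem) (h := hpE6.isCartan) f).iota_injective hd]

/-- check: every root orthogonal to `r₀` forms an angle of 60 or 120 degrees with some simple root orthogonal to `r₀`, or
it is `s₁` or `s₂` -/
def chkB (f : Fin 5 ↪ Fin 6) (i : Fin 6) (r₀ s₁ s₂ : Fin 5 → ℤ) (n : ℕ) : Bool :=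
  decide (vec chevE6 6 n i ≠ 0) || decide (Bf (AD f) r₀ (cv f n) ≠ 0) ||
    ((List.finRange 5).any fun j => decide (pairing (AD f) j r₀ = 0) && (decide (pairing (AD f) j (cv f n) = 1) ||
      decide (pairing (AD f) j (cv f n) = -1))) ||
    decide (cv f n = s₁) || decide (cv f n = s₂)

/-- a configuration as in `Bad` -/
def Wit (f : Fin 5 ↪ Fin 6) (r s ρ u d : Fin 5 → ℤ) : Prop :=
  Bf (AD f) ρ s = -1 ∧ Bf (AD f) ρ r = 1 ∧ Bf (AD f) u s = 1 ∧ Bf (AD f) ρ u = -1 ∧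
      Bf (AD f) u r = -1 ∧ Bf (AD f) d s = 1 ∧ Bf (AD f) d (ρ + u) = 0 ∧ Bf (AD f) d (s - u) = 1 ∧
      Bf (AD f) d (s - r + ρ) = 0

instance decWit (f : Fin 5 ↪ Fin 6) (r s ρ u d : Fin 5 → ℤ) : Decidable (Wit f r s ρ u d) := by
  unfold Wit
  infer_instance

theorem nroots_E6 : chevE6.nroots = 72 := by decide +kernel

section

variable (f : Fin 5 ↪ Fin 6) (i : Fin 6) (hi : ∀ k, k = i ∨ ∃ j, f j = k) (hi' : ∀ j, f j ≠ i)

include hi hi'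

theorem root_iff {c : Fin 5 → ℤ} : IsRoot (MD f).toCoxeterSystem (isCartanD f) c ↔
    ∃ n < 72, vec chevE6 6 n i = 0 ∧ c = cv f n := by
  rw [isRoot_iota', isRoot_iff hpE6 CoxeterMatrix.E₆.toCoxeterSystem, nroots_E6]
  constructor
  · rintro ⟨n, hn, h1⟩
    refine ⟨n, hn, ?_, ?_⟩
    · rw [h1, io_apply_ne f c hi']
    · funext j
      rw [cv, h1, io_apply]
  · rintro ⟨n, hn, h0, rfl⟩
    refine ⟨n, hn, ?_⟩
    funext k
    rcases hi k with rfl | ⟨j, rfl⟩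
    · rw [h0, io_apply_ne f _ hi']
    · rw [io_apply, cv]

theorem PPD {r₀ s₁ s₂ ρ₁ u₁ d₁ ρ₂ u₂ d₂ : Fin 5 → ℤ}
    (hr : ∀ c ∈ [r₀, ρ₁, u₁, d₁, ρ₂, u₂, d₂], ∃ n < 72, vec chevE6 6 n i = 0 ∧ c = cv f n)
    (hchk : (List.range 72).all (chkB f i r₀ s₁ s₂) = true) (h1 : Wit f r₀ s₁ ρ₁ u₁ d₁) (h2 : Wit f r₀ s₂ ρ₂ u₂ d₂)
    (h4 : ∀ i j, MD f i j ≠ 4) (h6 : ∀ i j, MD f i j ≠ 6) [Finite (MD f).Group] :
    PP (MD f).toCoxeterSystem (isCartanD f) r₀ := by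
  have hR := roots (MD f).toCoxeterSystem (isCartanD f) h4 h6
  have key : ∀ c ∈ [r₀, ρ₁, u₁, d₁, ρ₂, u₂, d₂], IsRoot (MD f).toCoxeterSystem (isCartanD f) c := fun c hc =>
    (root_iff f i hi hi').2 (hr c hc)
  intro s hs h0
  obtain ⟨n, hn, hn0, rfl⟩ := (root_iff f i hi hi').1 hs
  have h3 := List.all_eq_true.1 hchk n (List.mem_range.2 hn)
  simp only [chkB, Bool.or_eq_true, decide_eq_true_eq, Bool.and_eq_true, List.any_eq_true] at h3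
  rcases h3 with (((h3 | h3) | ⟨j, -, h3, h5⟩) | h3) | h3
  · exact absurd hn0 h3
  · exact absurd h0 h3
  · left
    have hj : IsRoot (MD f).toCoxeterSystem (isCartanD f) (sr j) := isRoot_sr _ _ j
    have e1 : Bf (AD f) (sr j) (cv f n) = pairing (AD f) j (cv f n) := by rw [hR.symm, bf_sr]
    have e2 : Bf (AD f) (sr j) r₀ = 0 := by rw [hR.symm, bf_sr, h3]
    rcases h5 with h5 | h5
    · exact ⟨sr j, hj, by rw [e1, h5], e2⟩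
    · exact ⟨-sr j, hj.neg, by rw [hR.neg_left, e1, h5]; norm_num, by rw [hR.neg_left, e2, neg_zero]⟩
  · right
    obtain ⟨a1, a2, a3, a4, a5, a6, a7, a8, a9⟩ := h1
    rw [h3]
    exact ⟨ρ₁, key _ (by simp), u₁, key _ (by simp), a1, a2, a3, a4, a5, ⟨d₁, key _ (by simp), a6, a7⟩,
      ⟨d₁, key _ (by simp), a8, a9⟩⟩
  · right
    obtain ⟨a1, a2, a3, a4, a5, a6, a7, a8, a9⟩ := h2
    rw [h3]
    exact ⟨ρ₂, key _ (by simp), u₂, key _ (by simp), a1, a2, a3, a4, a5, ⟨d₂, key _ (by simp), a6, a7⟩,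
      ⟨d₂, key _ (by simp), a8, a9⟩⟩

end

theorem hr1 : ∀ c ∈ [(![1, 1, 2, 2, 1] : Fin 5 → ℤ), ![0, 1, 1, 2, 1], ![0, 0, -1, -1, 0], ![1, 1, 1, 1, 0],
    ![1, 1, 1, 2, 1], ![-1, 0, -1, -1, 0], ![0, 1, 1, 1, 0]],
    ∃ n < 72, vec chevE6 6 n 5 = 0 ∧ c = cv Fin.castSuccEmb n := by decide +kernel

theorem hr2 : ∀ c ∈ [(![1, 1, 2, 2, 1] : Fin 5 → ℤ), ![1, 1, 2, 1, 0], ![0, 0, -1, -1, 0], ![1, 0, 1, 1, 1],
    ![1, 1, 2, 1, 1], ![0, 0, -1, -1, -1], ![1, 0, 1, 1, 0]],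
    ∃ n < 72, vec chevE6 6 n 0 = 0 ∧ c = cv (Fin.succEmb 5) n := by decide +kernel

theorem hc1 : (List.range 72).all (chkB Fin.castSuccEmb 5 ![1, 1, 2, 2, 1] ![1, 0, 0, 0, 0] ![-1, 0, 0, 0, 0]) = true := by
  decide +kernel

theorem hc2 : (List.range 72).all (chkB (Fin.succEmb 5) 0 ![1, 1, 2, 2, 1] ![0, 0, 0, 0, 1] ![0, 0, 0, 0, -1]) = true := by
  decide +kernel

theorem w11 : Wit Fin.castSuccEmb ![1, 1, 2, 2, 1] ![1, 0, 0, 0, 0] ![0, 1, 1, 2, 1] ![0, 0, -1, -1, 0]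
    ![1, 1, 1, 1, 0] := by decide +kernel
theorem w12 : Wit Fin.castSuccEmb ![1, 1, 2, 2, 1] ![-1, 0, 0, 0, 0] ![1, 1, 1, 2, 1] ![-1, 0, -1, -1, 0]
    ![0, 1, 1, 1, 0] := by decide +kernel
theorem w21 : Wit (Fin.succEmb 5) ![1, 1, 2, 2, 1] ![0, 0, 0, 0, 1] ![1, 1, 2, 1, 0] ![0, 0, -1, -1, 0]
    ![1, 0, 1, 1, 1] := by decide +kernel
theorem w22 : Wit (Fin.succEmb 5) ![1, 1, 2, 2, 1] ![0, 0, 0, 0, -1] ![1, 1, 2, 1, 1] ![0, 0, -1, -1, -1]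
    ![1, 0, 1, 1, 0] := by decide +kernel

theorem irr1 : ∀ J : Set (Fin 5), J.Nonempty → Jᶜ.Nonempty → ∃ i ∈ J, ∃ j ∈ Jᶜ, MD Fin.castSuccEmb i j ≠ 2 := by
  refine irr_of_tree 3 ![2, 1, 1, 0, 1] ![2, 3, 3, 3, 3] ?_
  intro i; fin_cases i <;> simp [CoxeterMatrix.E₆, leviMatrix]

theorem irr2 : ∀ J : Set (Fin 5), J.Nonempty → Jᶜ.Nonempty → ∃ i ∈ J, ∃ j ∈ Jᶜ, MD (Fin.succEmb 5) i j ≠ 2 := by
  refine irr_of_tree 2 ![1, 1, 0, 1, 2] ![2, 2, 2, 2, 3] ?_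
  intro i; fin_cases i <;> simp [CoxeterMatrix.E₆, leviMatrix]

section main

variable (K : Type v) [Field K] [Fintype K] {W : Type*} [Group W] (cs : CoxeterSystem CoxeterMatrix.E₆ W)

theorem exists_UJ_5 (p : ℕ) [Fact p.Prime] [CharP K p] :
    ∃ UJ : Subgroup ↥(chevE6.group K), UJ ≤ RGD.Sup (XX chevE6 6 K) (RGD.Pos cs hpE6.isCartan) ∧
      Nat.card (RGD.Sup (XX chevE6 6 K) (PosJ cs hpE6.isCartan (Set.range (Fin.castSuccEmb : Fin 5 ↪ Fin 6)))) ≤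
        Nat.card UJ ∧
      Split.{u} (YJ hpE6 cs K (Set.range (Fin.castSuccEmb : Fin 5 ↪ Fin 6))) UJ := by
  have hi : ∀ k : Fin 6, k = 5 ∨ ∃ j : Fin 5, Fin.castSuccEmb j = k := by decide
  have hi' : ∀ j : Fin 5, Fin.castSuccEmb j ≠ (5 : Fin 6) := by decide
  exact exists_UJ typE6 K (p := p) cs (isCartanD Fin.castSuccEmb) Fin.castSuccEmb (fun _ _ => rfl) (fun _ _ => rfl) irr1
    (by norm_num) ((root_iff Fin.castSuccEmb 5 hi hi').2 (hr1 _ (by simp)))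
    (fun h4 h6 _ => PPD Fin.castSuccEmb 5 hi hi' hr1 hc1 w11 w12 h4 h6)

theorem exists_UJ_0 (p : ℕ) [Fact p.Prime] [CharP K p] :
    ∃ UJ : Subgroup ↥(chevE6.group K), UJ ≤ RGD.Sup (XX chevE6 6 K) (RGD.Pos cs hpE6.isCartan) ∧
      Nat.card (RGD.Sup (XX chevE6 6 K) (PosJ cs hpE6.isCartan (Set.range (Fin.succEmb 5)))) ≤ Nat.card UJ ∧
      Split.{u} (YJ hpE6 cs K (Set.range (Fin.succEmb 5))) UJ := by
  have hi : ∀ k : Fin 6, k = 0 ∨ ∃ j : Fin 5, Fin.succEmb 5 j = k := by decide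
  have hi' : ∀ j : Fin 5, Fin.succEmb 5 j ≠ (0 : Fin 6) := by decide
  exact exists_UJ typE6 K (p := p) cs (isCartanD (Fin.succEmb 5)) (Fin.succEmb 5) (fun _ _ => rfl) (fun _ _ => rfl) irr2
    (by norm_num) ((root_iff (Fin.succEmb 5) 0 hi hi').2 (hr2 _ (by simp)))
    (fun h4 h6 _ => PPD (Fin.succEmb 5) 0 hi hi' hr2 hc2 w21 w22 h4 h6)

end main

end Cfsg.Agent.H850.Cod.LiftD
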