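import Cfsg.Agent.H850.Cod.Par
import Cfsg.Agent.H850.Cod.LiftD
import Cfsg.Agent.H62.PPChev

/-!
# Noncentral minimal normal `p`-subgroups over `F₄(q)`, `E₆(q)`, `E₇(q)`, `E₈(q)`, `q` a power of `p` (helper850, S3539)
-/

set_option autoImplicit false
set_option linter.unusedSectionVars false

universe u v

namespace Cfsg.Agent.H850.Cod.Char

open CoxeterSystem Cfsg.Agent.ChevalleyStructure.CoxeterGeom Cfsg.Agent.Tits.Roots Cfsg.Agent.Tits.Core
  Cfsg.Agent.Nodes.Reps Cfsg.Agent.Nodes.BNOf Cfsg.Agent.Nodes.Bruhat Cfsg.Agent.Nodes.LeviDec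
  Cfsg.Agent.Nodes.StabComb Cfsg.Agent.Nodes.Unique Cfsg.Agent.Nodes.CardSup Cfsg.Agent.Nodes.RGDChev
  Cfsg.Agent.H62.PPIdx Cfsg.Agent.H62.PPChev
open Cfsg.Lie Cfsg.Agent.ChevalleyStructure Cfsg.Agent.ChevalleyStructure.Elts
  Cfsg.Agent.ChevalleyStructure.RootVec
open Cfsg Cfsg.Agent.Characters.Core Cfsg.Agent.H686.CharKit
open Cfsg.Agent.H850.Cod.Levi Cfsg.Agent.H850.Cod.Par Cfsg.Agent.H65.UnivE Cfsg.Agent.H850.Cod.LiftJ
  Cfsg.Agent.H850.Cod.LiftD

section

variable {D : ChevalleyDatum} {l : ℕ} {M : CoxeterMatrix (Fin l)} (hp : IsType D l M) {K : Type v} [Field K]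
  [Fintype K] {W : Type*} [Group W] (cs : CoxeterSystem M W)

include hp in
theorem pow_le_card_VJ_of [Finite W] (r : ℕ) [Fact r.Prime] [CharP K r] (J : Set (Fin l)) {m : ℕ} (b : ℕ → Bool)
    (hb : ∀ s < D.nroots, b s = true → ∃ k : Fin l, k ∉ J ∧ 0 < rt D s k)
    (hm : m ≤ ((List.range D.nroots).filter b).length) :
    Fintype.card K ^ m ≤ Nat.card (VJ cs hp.isCartan (XX D l K) J) := by
  classical
  have R := rgd (K := K) hp cs r
  have hfin : (NotJ cs hp.isCartan J).Finite :=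
    (RGD.finite_roots (cs := cs) (h := hp.isCartan)).subset fun _ hx => hx.1
  set s : Finset (Fin l → ℤ) := hfin.toFinset with hs
  have hsc : (s : Set (Fin l → ℤ)) = NotJ cs hp.isCartan J := hfin.coe_toFinset
  have h3 : Nat.card (VJ cs hp.isCartan (XX D l K) J) = ∏ x ∈ s, Nat.card ↥(XX D l K x) := by
    have := card_sup R (s := s) (by rw [hsc]; exact fun x hx => ⟨hx.1, hx.2.1⟩) (by rw [hsc]; exact closed_NotJ _)
    rw [← this, hsc]
    rfl
  have h4 : ∏ x ∈ s, Nat.card ↥(XX D l K x) = Fintype.card K ^ s.card := by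
    rw [← Finset.prod_const]
    refine Finset.prod_congr rfl fun x hx => card_X hp cs ?_
    have hx' : x ∈ NotJ cs hp.isCartan J := by rw [← hsc]; exact hx
    exact hx'.1
  rw [h3, h4]
  refine Nat.pow_le_pow_right Fintype.card_pos (hm.trans ?_)
  have h5 : ((List.range D.nroots).filter b).length = (((List.range D.nroots).filter b).toFinset).card := by
    rw [List.toFinset_card_of_nodup (List.nodup_range.filter _)]
  rw [h5]
  refine Finset.card_le_card_of_injOn (fun r => vec D l r) ?_ ?_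
  · intro r hr
    rw [Finset.mem_coe, List.mem_toFinset, List.mem_filter, List.mem_range] at hr
    obtain ⟨k, hk, hk0⟩ := hb r hr.1 hr.2
    rw [hsc]
    have h6 := isRoot_vec hp cs hr.1
    exact ⟨h6, nonneg_of_pos_apply h6 (k := k) hk0, k, hk, hk0⟩
  · intro a ha b hb e
    rw [Finset.mem_coe, List.mem_toFinset, List.mem_filter, List.mem_range] at ha hb
    exact vec_inj hp ha.1 hb.1 e

/-- the number of roots with positive `i`-th or `j`-th coordinate -/
def num2 (D : ChevalleyDatum) (i j : ℕ) : ℕ :=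
  ((List.range D.nroots).filter fun r => decide (0 < rt D r i) || decide (0 < rt D r j)).length

end

theorem not_dvd_prod {p q : ℕ} (hp : p.Prime) (hq : p ∣ q) (hq0 : q ≠ 0) (ds : List ℕ) (hds : ∀ d ∈ ds, d ≠ 0) :
    ¬ p ∣ (ds.map fun d => q ^ d - 1).prod := by
  intro h
  rw [Prime.dvd_prod_iff hp.prime] at h
  obtain ⟨a, ha, h1⟩ := h
  rw [List.mem_map] at ha
  obtain ⟨d, hd, rfl⟩ := ha
  have h2 : p ∣ q ^ d := dvd_pow hq (hds d hd)
  have h3 : 1 ≤ q ^ d := Nat.pos_of_ne_zero (pow_ne_zero _ hq0)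
  have h4 := (Nat.dvd_sub_iff_right h3 h2).1 h1
  exact hp.one_lt.ne' (Nat.dvd_one.1 h4)

section

variable {D : ChevalleyDatum} {l : ℕ} {M : CoxeterMatrix (Fin l)} (hp : IsType D l M) (K : Type v) [Field K]
  [Fintype K]

/-- the condition on a node -/
def NodeOK (N : ℕ) (i : Fin l) : Prop :=
  N ≤ 2 * num D i ∨ ((∀ j : Fin l, j ≠ i → N ≤ 2 * num2 D i j) ∧
    ∃ UJ : Subgroup ↥(D.group K), UJ ≤ RGD.Sup (XX D l K) (RGD.Pos M.toCoxeterSystem hp.isCartan) ∧
        Nat.card (RGD.Sup (XX D l K) (PosJ M.toCoxeterSystem hp.isCartan {i}ᶜ)) ≤ Nat.card UJ ∧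
        Split.{u} (RGD.Sup (XX D l K) (RootsJ M.toCoxeterSystem hp.isCartan {i}ᶜ)) UJ)

variable {K} in
/-- **the general form** -/
theorem char_of (p : ℕ) [hpp : Fact p.Prime] [CharP K p] {N : ℕ} {ds : List ℕ} (hds : ∀ d ∈ ds, d ≠ 0)
    (hcard : Nat.card ↥(D.group K) ∣ Fintype.card K ^ N * (ds.map fun d => Fintype.card K ^ d - 1).prod)
    (hnode : ∀ i : Fin l, NodeOK.{u} hp K N i)
    {G : Type u} [Group G] [Finite G] (A : Subgroup G) [hA : A.Normal] {f : G →* ↥(D.group K)}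
    (hf : Function.Surjective f) (hk : ∀ g, f g = 1 ↔ g ∈ A) (hA1 : A ≠ ⊥)
    (hmin : ∀ J : Subgroup G, J.Normal → J ≤ A → J = ⊥ ∨ J = A)
    (hab : ∀ x ∈ A, ∀ y ∈ A, Commute x y) (hnc : ¬ A ≤ Subgroup.center G) (hAp : IsPGroup p A)
    (hsq : Nat.card A ^ 2 ∣ Nat.card ↥(D.group K))
    (hdeg : ∀ χ : IrrCharacter G, ¬ A ≤ chKer χ → Nat.card A ∣ charDegree (χ : G → ℂ)) : False := by
  let cs : CoxeterSystem M M.Group := M.toCoxeterSystem
  have hW : Finite M.Group := finite_W hp cs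
  have R := rgd (K := K) hp cs p
  obtain ⟨k, hk'⟩ := IsPGroup.iff_card.1 hAp
  obtain ⟨n, -, hn⟩ := FiniteField.card K p
  have hpq : p ∣ Fintype.card K := by rw [hn]; exact dvd_pow_self p n.ne_zero
  have h1 : Nat.card A ^ 2 ∣ Fintype.card K ^ N := by
    refine Nat.Coprime.dvd_of_dvd_mul_right ?_ (hsq.trans hcard)
    rw [hk', ← pow_mul]
    exact Nat.Coprime.pow_left _ ((Nat.Prime.coprime_iff_not_dvd hpp.out).2
      (not_dvd_prod hpp.out hpq Fintype.card_ne_zero ds hds))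
  have h2 : Nat.card A ^ 2 ≤ Fintype.card K ^ N := Nat.le_of_dvd (pow_pos Fintype.card_pos N) h1
  obtain ⟨S, hS1, hS2, hS3, hS4⟩ := core A hf hk hA1 hmin hab hnc hAp hdeg R.isPGroup_Upos
  refine final R (G1_eq_top hp cs (K := K)) hS1 hS2 hk' h2 hS3 hS4 fun i => ?_
  rcases hnode i with h3 | ⟨h3, h4⟩
  · left
    refine le_trans ?_ (Nat.pow_le_pow_left (pow_le_card_VJ hp cs p i le_rfl) 2)
    rw [← pow_mul]
    exact Nat.pow_le_pow_right Fintype.card_pos (by omega)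
  · right
    refine ⟨fun j hj => ?_, h4⟩
    refine le_trans ?_ (Nat.pow_le_pow_left (pow_le_card_VJ_of hp cs p {i, j}ᶜ (m := num2 D i j)
      (fun r => decide (0 < rt D r i) || decide (0 < rt D r j)) (fun s _ hs => ?_) le_rfl) 2)
    · rw [← pow_mul]
      exact Nat.pow_le_pow_right Fintype.card_pos (by have := h3 j hj; omega)
    · rw [Bool.or_eq_true, decide_eq_true_eq, decide_eq_true_eq] at hs
      rcases hs with hs | hs
      · exact ⟨i, by simp, hs⟩
      · exact ⟨j, by simp, hs⟩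

end

end Cfsg.Agent.H850.Cod.Char
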