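import Cfsg.Agent.H850.Cod.CharFour
import Cfsg.Agent.H850.Cod.Reduce

/-!
# The noncentral case, defining characteristic (helper850, S3539)

* `c1` : the situation of `NoncentralOK` with `M` a `p`-group
* `noncentralOK_of` : `NoncentralOK` from the other characteristics
-/

set_option autoImplicit false
set_option linter.unusedSectionVars false

universe u v

namespace Cfsg.Agent.H850.Cod

open Cfsg Cfsg.Lie Cfsg.Agent.Characters.Core Cfsg.Agent.H686.CharKit Subgroup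

variable {F : Type v} [Field F] [Finite F]

/-- **noncentral minimal normal `p`-subgroups over `F₄(q)`, `E₆(q)`, `E₇(q)`, `E₈(q)`, `q` a power of `p`** -/
theorem c1 (p : ℕ) [Fact p.Prime] [CharP F p] {D : ChevalleyDatum} (hD : D ∈ [chevF4, chevE6, chevE7, chevE8])
    {G : Type u} [Group G] [Finite G] (M : Subgroup G) [hM : M.Normal] (e : G ⧸ M ≃* ↥(D.group F)) (hM1 : M ≠ ⊥)
    (hmin : ∀ J : Subgroup G, J.Normal → J ≤ M → J = ⊥ ∨ J = M) (hab : ∀ x ∈ M, ∀ y ∈ M, Commute x y)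
    (hnc : ¬ M ≤ center G) (hsq : Nat.card M ^ 2 ∣ Nat.card ↥(D.group F))
    (hdeg : ∀ χ : IrrCharacter G, ¬ M ≤ chKer χ → ∃ d : ℕ, NDeg ↥(D.group F) d ∧
      charDegree (χ : G → ℂ) = Nat.card M * d) (hMp : IsPGroup p M) : False := by
  have := Fintype.ofFinite F
  refine Char.char_four (K := F) p hD M (f := e.toMonoidHom.comp (QuotientGroup.mk' M)) ?_ (fun g => ?_) hM1 hmin hab hnc
    hMp hsq fun χ hχ => ?_
  · exact e.surjective.comp (QuotientGroup.mk'_surjective M)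
  · show e (QuotientGroup.mk g) = 1 ↔ _
    rw [map_eq_one_iff e e.injective, QuotientGroup.eq_one_iff]
  · obtain ⟨d, -, hd⟩ := hdeg χ hχ
    exact ⟨d, hd⟩

/-- the remaining case: `M` of order prime to the characteristic -/
def CrossOK (p : ℕ) (L : Type v) [Group L] : Prop :=
  ∀ (G : Type u) [Group G] [Finite G] (M : Subgroup G) [M.Normal] (_ : G ⧸ M ≃* L), commutator G = ⊤ →
    M ≠ ⊥ → (∀ J : Subgroup G, J.Normal → J ≤ M → J = ⊥ ∨ J = M) → (∀ x ∈ M, ∀ y ∈ M, Commute x y) →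
    ¬ M ≤ center G → Nat.card M ^ 2 ∣ Nat.card L →
    (∀ χ : IrrCharacter G, ¬ M ≤ chKer χ → ∃ d : ℕ, NDeg L d ∧ charDegree (χ : G → ℂ) = Nat.card M * d) →
    ∀ (t : ℕ), t.Prime → t ≠ p → ∀ m : ℕ, Nat.card M = t ^ m → (∀ x ∈ M, x ^ t = 1) →
      Nat.card L ∣ Nat.card (Matrix.GeneralLinearGroup (Fin m) (ZMod t)) → False

theorem noncentralOK_of (p : ℕ) [Fact p.Prime] [CharP F p] {D : ChevalleyDatum}
    (hD : D ∈ [chevF4, chevE6, chevE7, chevE8]) [Finite ↥(D.group F)] [IsSimpleGroup ↥(D.group F)]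
    (hL : ¬ ∀ a b : ↥(D.group F), a * b = b * a)
    (h : CrossOK.{u} p ↥(D.group F)) : NoncentralOK.{u} ↥(D.group F) := by
  intro G _ _ M _ e hp hM1 hmin hab hnc hsq hdeg
  obtain ⟨t, ht, m, hm, h1, h2⟩ := noncentral M e hM1 hmin hab hnc
  by_cases htp : t = p
  · subst htp
    refine c1 t hD M e hM1 hmin hab hnc hsq hdeg ?_
    exact IsPGroup.of_card hm
  · exact h G M e hp hM1 hmin hab hnc hsq hdeg t ht htp m hm h1 h2

end Cfsg.Agent.H850.Cod
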