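import Cfsg.Agent.H850.Cod.Ext
import Cfsg.Agent.H850.Cod.Dual
import Cfsg.Agent.KFacts.Mult.Calc

/-!
# Noncentral minimal normal `p`-subgroups (helper850, S3539)

`Split YJ UJ` : every central extension of `YJ` splits over `UJ`.

`core` : `M` a noncentral abelian minimal normal `p`-subgroup of `G` such that `|M|` divides the degrees of the irreducible
characters over `M`; `f : G → Y` surjective with kernel `M`, `U` a `p`-subgroup of `Y`. Then there is a subgroup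
`S ≠ Y` of `Y` with `U ≤ S`, `|Y : S| < |M|` and such that `|M|` divides `|Y : UJ|` for all `UJ ≤ YJ ≤ S` with
`Split YJ UJ`.
-/

set_option autoImplicit false
set_option linter.unusedSectionVars false

universe u v

namespace Cfsg.Agent.H850.Cod

open Cfsg Cfsg.Agent.Characters.Core Cfsg.Agent.H686.CharKit Subgroup
open Cfsg.Agent.KFacts.Mult.Calc Cfsg.Agent.H850.Cod.Dual

/-- every central extension of `YJ` splits over `UJ` -/
def Split {Y : Type v} [Group Y] (YJ UJ : Subgroup Y) : Prop :=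
  ∀ (E : Type u) [Group E] [Finite E] (π : E →* YJ), CE π →
    ∃ V : Subgroup E, (∀ x ∈ V, π x = 1 → x = 1) ∧ V.map (YJ.subtype.comp π) = UJ

variable {G : Type u} [Group G] [Finite G] {Y : Type v} [Group Y] [Finite Y]

/-- extension to the preimage of `UJ` -/
theorem exists_ext_of_split (M : Subgroup G) [hM : M.Normal] {f : G →* Y} (hf : Function.Surjective f)
    (hk : ∀ g, f g = 1 ↔ g ∈ M) {lam : M →* ℂˣ} {YJ UJ : Subgroup Y} (hY : YJ.comap f ≤ stab M lam)
    (hS : Split.{u} YJ UJ) :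
    ∃ φ : UJ.comap f →* ℂˣ, ∀ (x : G) (hx : x ∈ M) (hx' : x ∈ UJ.comap f), φ ⟨x, hx'⟩ = lam ⟨x, hx⟩ := by
  classical
  set H : Subgroup G := YJ.comap f with hH
  let K0 : Subgroup H :=
    { carrier := {h | ∃ hx : (h : G) ∈ M, lam ⟨h, hx⟩ = 1}
      one_mem' := ⟨one_mem M, map_one lam⟩
      mul_mem' := by
        rintro a b ⟨ha, ha'⟩ ⟨hb, hb'⟩
        refine ⟨mul_mem ha hb, ?_⟩
        have h1 : (⟨((a * b : H) : G), mul_mem ha hb⟩ : M) = ⟨a, ha⟩ * ⟨b, hb⟩ := rfl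
        rw [h1, map_mul, ha', hb', one_mul]
      inv_mem' := by
        rintro a ⟨ha, ha'⟩
        refine ⟨inv_mem ha, ?_⟩
        have h1 : (⟨((a⁻¹ : H) : G), inv_mem ha⟩ : M) = (⟨a, ha⟩ : M)⁻¹ := rfl
        rw [h1, map_inv, ha', inv_one] }
  have hK0 : K0.Normal := by
    constructor
    rintro a ⟨ha, ha'⟩ g
    have h1 : ((g * a * g⁻¹ : H) : G) ∈ M := hM.conj_mem _ ha g
    refine ⟨h1, ?_⟩
    rw [← ha']
    exact stab_inv' M (hY g.2) ha h1
  let f0 : H →* YJ := f.subgroupComap YJ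
  have hf0 : ∀ h : H, (f0 h : Y) = f h := fun _ => rfl
  have hf0s : Function.Surjective f0 := f.subgroupComap_surjective_of_surjective YJ hf
  let π : (H ⧸ K0) →* YJ := QuotientGroup.lift K0 f0 (by
    rintro a ⟨ha, -⟩
    apply Subtype.ext
    rw [hf0]
    exact (hk a).2 ha)
  have hπ : ∀ h : H, π (QuotientGroup.mk h) = f0 h := fun h => rfl
  have hce : CE π := by
    refine ⟨fun y => ?_, fun x hx => ?_⟩
    · obtain ⟨h, rfl⟩ := hf0s y
      exact ⟨QuotientGroup.mk h, hπ h⟩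
    · obtain ⟨a, rfl⟩ := QuotientGroup.mk_surjective x
      rw [MonoidHom.mem_ker, hπ] at hx
      have ha : (a : G) ∈ M := by
        rw [← hk, ← hf0, hx]
        rfl
      rw [Subgroup.mem_center_iff]
      intro y
      obtain ⟨b, rfl⟩ := QuotientGroup.mk_surjective y
      rw [← QuotientGroup.mk_mul, ← QuotientGroup.mk_mul]
      symm
      rw [QuotientGroup.eq]
      have h1 : (b : G)⁻¹ * (a : G)⁻¹ * b ∈ M := by simpa using hM.conj_mem _ (inv_mem ha) (b : G)⁻¹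
      have e1 : (((a * b)⁻¹ * (b * a) : H) : G) = ((b : G)⁻¹ * (a : G)⁻¹ * b) * a := by
        simp [mul_assoc]
      have h2 : (((a * b)⁻¹ * (b * a) : H) : G) ∈ M := by
        rw [e1]
        exact mul_mem h1 ha
      refine ⟨h2, ?_⟩
      have e2 : (⟨(((a * b)⁻¹ * (b * a) : H) : G), h2⟩ : M) = ⟨(b : G)⁻¹ * (a : G)⁻¹ * b, h1⟩ * ⟨a, ha⟩ := Subtype.ext e1
      rw [e2, map_mul, stab_inv M (hY b.2) (inv_mem ha) h1]
      have e3 : (⟨(a : G)⁻¹, inv_mem ha⟩ : M) = (⟨a, ha⟩ : M)⁻¹ := rfl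
      rw [e3, map_inv, inv_mul_cancel]
  obtain ⟨V, hV1, hV2⟩ := hS (H ⧸ K0) π hce
  let VG : Subgroup G := (V.comap (QuotientGroup.mk' K0)).map H.subtype
  have hVG : ∀ x, x ∈ VG ↔ ∃ h : H, (QuotientGroup.mk h : H ⧸ K0) ∈ V ∧ (h : G) = x := by
    intro x
    constructor
    · rintro ⟨h, hh, rfl⟩
      exact ⟨h, hh, rfl⟩
    · rintro ⟨h, hh, rfl⟩
      exact ⟨h, hh, rfl⟩
  refine exists_ext M (V := VG) ?_ ?_ ?_
  · intro x hx
    obtain ⟨h, -, rfl⟩ := (hVG x).1 hx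
    exact hY h.2
  · intro x hx hxV
    obtain ⟨h, hh, rfl⟩ := (hVG x).1 hxV
    have h1 : π (QuotientGroup.mk h) = 1 := by
      apply Subtype.ext
      rw [hπ, hf0]
      exact (hk _).2 hx
    have h2 := hV1 _ hh h1
    obtain ⟨hx', h3⟩ := (QuotientGroup.eq_one_iff h).1 h2
    exact h3
  · intro g hg
    have h1 : f g ∈ UJ := hg
    rw [← hV2] at h1
    obtain ⟨v, hv, e⟩ := h1
    obtain ⟨h, rfl⟩ := QuotientGroup.mk_surjective v
    have e1 : f h = f g := e
    refine ⟨h, (hVG _).2 ⟨h, hv, rfl⟩, (h : G)⁻¹ * g, ?_, by group⟩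
    rw [← hk, map_mul, map_inv, e1, inv_mul_cancel]

/-- **noncentral minimal normal subgroups** -/
theorem core {p : ℕ} [Fact p.Prime] (M : Subgroup G) [hM : M.Normal] {f : G →* Y} (hf : Function.Surjective f)
    (hk : ∀ g, f g = 1 ↔ g ∈ M) (hM1 : M ≠ ⊥) (hmin : ∀ J : Subgroup G, J.Normal → J ≤ M → J = ⊥ ∨ J = M)
    (hab : ∀ x ∈ M, ∀ y ∈ M, Commute x y) (hnc : ¬ M ≤ center G) (hp : IsPGroup p M)
    (hdeg : ∀ χ : IrrCharacter G, ¬ M ≤ chKer χ → Nat.card M ∣ charDegree (χ : G → ℂ))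
    {U : Subgroup Y} (hU : IsPGroup p U) :
    ∃ S : Subgroup Y, U ≤ S ∧ S ≠ ⊤ ∧ S.index < Nat.card M ∧
      ∀ YJ UJ : Subgroup Y, YJ ≤ S → Split.{u} YJ UJ → Nat.card M ∣ UJ.index := by
  classical
  have hker : f.ker = M := by
    ext g
    rw [MonoidHom.mem_ker, hk]
  have hUp : IsPGroup p (U.comap f) := hU.comap_of_ker_isPGroup f (by rw [hker]; exact hp)
  obtain ⟨lam, hlam, hfix⟩ := exists_fixed M hab hp hM1 hUp
  have hMs : M ≤ stab M lam := by
    intro g hg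
    rw [mem_stab]
    ext x
    rw [cjc_apply]
    congr 2
    apply Subtype.ext
    have h1 := hab g hg x x.2
    show g⁻¹ * x * g = x
    rw [mul_assoc, ← h1.eq, inv_mul_cancel_left]
  have hcm : ((stab M lam).map f).comap f = stab M lam := by
    rw [Subgroup.comap_map_eq, hker, sup_eq_left.2 hMs]
  refine ⟨(stab M lam).map f, ?_, ?_, ?_, ?_⟩
  · intro y hy
    obtain ⟨g, rfl⟩ := hf y
    exact ⟨g, hfix hy, rfl⟩
  · intro htop
    rw [htop, Subgroup.comap_top] at hcm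
    have hinv : ∀ g x : G, ∀ (hx : x ∈ M) (hx' : g * x * g⁻¹ ∈ M), lam ⟨g * x * g⁻¹, hx'⟩ = lam ⟨x, hx⟩ :=
      fun g x hx hx' => stab_inv' M (by rw [← hcm]; exact mem_top g) hx hx'
    let K1 : Subgroup G := lam.ker.map M.subtype
    have hK1 : ∀ x, x ∈ K1 ↔ ∃ hx : x ∈ M, lam ⟨x, hx⟩ = 1 := by
      intro x
      constructor
      · rintro ⟨y, hy, rfl⟩
        exact ⟨y.2, hy⟩
      · rintro ⟨hx, h1⟩
        exact ⟨⟨x, hx⟩, h1, rfl⟩
    have hK1n : K1.Normal := by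
      constructor
      intro x hx g
      obtain ⟨hx, h1⟩ := (hK1 x).1 hx
      refine (hK1 _).2 ⟨hM.conj_mem x hx g, ?_⟩
      rw [hinv g x hx, h1]
    have hK1M : K1 ≤ M := fun x hx => ((hK1 x).1 hx).1
    rcases hmin K1 hK1n hK1M with h1 | h1
    · apply hnc
      intro x hx
      rw [Subgroup.mem_center_iff]
      intro g
      have hx' := hM.conj_mem x hx g
      have h2 := hinv g x hx hx'
      have h3 : g * x * g⁻¹ * x⁻¹ ∈ K1 := by
        refine (hK1 _).2 ⟨mul_mem hx' (inv_mem hx), ?_⟩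
        have e1 : (⟨g * x * g⁻¹ * x⁻¹, mul_mem hx' (inv_mem hx)⟩ : M) = ⟨g * x * g⁻¹, hx'⟩ * ⟨x, hx⟩⁻¹ := rfl
        rw [e1, map_mul, map_inv, h2, mul_inv_cancel]
      rw [h1, mem_bot, mul_inv_eq_one, mul_inv_eq_iff_eq_mul] at h3
      exact h3
    · apply hlam
      ext x
      have h2 : (x : G) ∈ K1 := by rw [h1]; exact x.2
      obtain ⟨h3, h4⟩ := (hK1 _).1 h2
      have h5 : lam x = 1 := h4
      rw [h5]
      rfl
  · have h1 : ((stab M lam).map f).index = (stab M lam).index := by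
      rw [← Subgroup.index_comap_of_surjective ((stab M lam).map f) hf, hcm]
    rw [h1]
    exact index_stab_lt M hab hlam
  · intro YJ UJ hYJ hS
    have hYs : YJ.comap f ≤ stab M lam := by
      rw [← hcm]
      exact Subgroup.comap_mono hYJ
    obtain ⟨φ, hφ⟩ := exists_ext_of_split M hf hk hYs hS
    obtain ⟨x, hx⟩ : ∃ x : M, lam x ≠ 1 := by
      by_contra hne
      push Not at hne
      exact hlam (MonoidHom.ext fun x => hne x)
    have hMU : (x : G) ∈ UJ.comap f := by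
      rw [Subgroup.mem_comap, (hk _).2 x.2]
      exact one_mem _
    have h2 := ext_dvd M hdeg (UJ.comap f) φ (x := ⟨x, hMU⟩) x.2 (by
      rw [hφ x x.2 hMU]
      exact hx)
    rwa [Subgroup.index_comap_of_surjective UJ hf] at h2

end Cfsg.Agent.H850.Cod
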