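import Cfsg.Agent.H850.Cod.Basic

/-!
# Degrees over a normal subgroup and linear characters of subgroups (helper850, S3539)

* `ext_dvd` : if the degree of every irreducible character of `G` over `M` is divisible by `m`, and the subgroup `Y`
  has a linear character which is not trivial on `M`, then `m` divides `|G : Y|`
-/

set_option autoImplicit false
set_option linter.unusedSectionVars false

universe u v

namespace Cfsg.Agent.H850.Cod

open Cfsg Cfsg.Agent.Characters.Core Cfsg.Agent.H686.CharKit Subgroup
open scoped ComplexConjugate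

variable {G : Type u} [Group G] [Finite G]

theorem ext_dvd (M : Subgroup G) {m : ℕ}
    (hab : ∀ χ : IrrCharacter G, ¬ M ≤ chKer χ → m ∣ charDegree (χ : G → ℂ))
    (Y : Subgroup G) (φ : Y →* ℂˣ) {x : Y} (hx : (x : G) ∈ M) (hφ : φ x ≠ 1) : m ∣ Y.index := by
  classical
  have := Fintype.ofFinite G
  have := Fintype.ofFinite Y
  have := finite_irr (G := G)
  have := Fintype.ofFinite (IrrCharacter G)
  let f : Y → ℂ := fun y => (φ y : ℂ)
  have hf : IsCharacter Y f := Characters.Linear.isCharacter_hom φ
  have hnat : ∀ χ : IrrCharacter G, ∃ n : ℕ, classInner f ((χ : G → ℂ) ∘ Y.subtype) = n := fun χ =>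
    classInner_isNat hf (isCharacter_comp Y.subtype (isIrr_isCharacter χ.2))
  choose n hn using hnat
  have hsum : ((∑ χ : IrrCharacter G, n χ * charDegree (χ : G → ℂ) : ℕ) : ℂ) = (Y.index : ℂ) := by
    push_cast
    have h1 : ∀ χ : IrrCharacter G, (n χ : ℂ) * (charDegree (χ : G → ℂ) : ℂ) =
        (Nat.card Y : ℂ)⁻¹ * ∑ y : Y, f y * ((χ : G → ℂ) 1 * conj ((χ : G → ℂ) y)) := by
      intro χ
      rw [← hn χ, charDegree_irr, classInner_def, mul_assoc, Finset.sum_mul]
      congr 1
      refine Finset.sum_congr rfl fun y _ => ?_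
      simp only [Function.comp_apply, Subgroup.coe_subtype]
      ring
    rw [Finset.sum_congr rfl fun χ _ => h1 χ, ← Finset.mul_sum, Finset.sum_comm]
    have h2 : ∀ y : Y, ∑ χ : IrrCharacter G, f y * ((χ : G → ℂ) 1 * conj ((χ : G → ℂ) y)) =
        if y = 1 then (Nat.card G : ℂ) else 0 := by
      intro y
      rw [← Finset.mul_sum, col_orth]
      by_cases hy : y = 1
      · subst hy
        have h6 : IsConj (1 : G) ((1 : Y) : G) := IsConj.refl _
        rw [if_pos rfl, if_pos h6]
        have h3 : f 1 = 1 := by simp [f]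
        have h4 : centralizer ({((1 : Y) : G)} : Set G) = ⊤ := by
          rw [eq_top_iff]
          intro g _
          rw [mem_centralizer_singleton_iff]
          simp
        rw [h3, h4, Subgroup.card_top, one_mul]
      · rw [if_neg hy, if_neg, mul_zero]
        rw [isConj_one_right]
        exact fun h => hy (Subtype.ext h)
    rw [Finset.sum_congr rfl fun y _ => h2 y, Finset.sum_ite_eq' Finset.univ (1 : Y) fun _ => (Nat.card G : ℂ),
      if_pos (Finset.mem_univ _), ← Subgroup.card_mul_index Y]
    have h3 : (Nat.card Y : ℂ) ≠ 0 := card_ne_zero_complex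
    push_cast
    rw [inv_mul_cancel_left₀ h3]
  have hsum' : ∑ χ : IrrCharacter G, n χ * charDegree (χ : G → ℂ) = Y.index := by exact_mod_cast hsum
  rw [← hsum']
  refine Finset.dvd_sum fun χ _ => ?_
  by_cases hχ : M ≤ chKer χ
  · have h0 : n χ = 0 := by
      have h1 : (n χ : ℂ) = 0 := by
        rw [← hn χ, classInner_def]
        have h2 : (∑ y : Y, f y * conj (((χ : G → ℂ) ∘ Y.subtype) y)) = 0 := by
          have h3 : ∑ y : Y, f y * conj (((χ : G → ℂ) ∘ Y.subtype) y) =
              (φ x : ℂ) * ∑ y : Y, f y * conj (((χ : G → ℂ) ∘ Y.subtype) y) := by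
            rw [Finset.mul_sum]
            rw [← Equiv.sum_comp (Equiv.mulLeft x)]
            refine Finset.sum_congr rfl fun y _ => ?_
            simp only [Equiv.coe_mulLeft, Function.comp_apply, Subgroup.coe_subtype, Subgroup.coe_mul]
            rw [apply_mul_of_eq (isIrr_isCharacter χ.2) (hχ hx)]
            simp only [f, map_mul, Units.val_mul]
            ring
          have h4 : (1 - (φ x : ℂ)) * ∑ y : Y, f y * conj (((χ : G → ℂ) ∘ Y.subtype) y) = 0 := by
            rw [sub_mul, one_mul, ← h3, sub_self]
          rcases mul_eq_zero.1 h4 with h5 | h5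
          · exfalso
            apply hφ
            apply Units.ext
            rw [Units.val_one]
            exact (sub_eq_zero.1 h5).symm
          · exact h5
        rw [h2, mul_zero]
      exact_mod_cast h1
    rw [h0, zero_mul]
    exact dvd_zero _
  · exact Dvd.dvd.mul_left (hab χ hχ) _

end Cfsg.Agent.H850.Cod
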