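import Cfsg.Agent.H850.Cod.Filt
import Cfsg.Agent.H65.ChevSys
import Cfsg.Agent.Nodes.LeviStd
import Cfsg.Agent.Nodes.CardSup
import Cfsg.Agent.H62.PPChev

/-!
# Standard Levi subgroups of simply laced Chevalley groups (helper850, S3539)

* `ssys_levi` : the system of root elements of a standard Levi subgroup, in its own coordinates
* `exists_split` : if this system lifts to all central extensions of the Levi subgroup `Y_J`, these split over
  `U ∩ Y_J`
-/

set_option autoImplicit false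
set_option linter.unusedSectionVars false

universe u v

namespace Cfsg.Agent.H850.Cod.Levi

open CoxeterSystem Cfsg.Agent.ChevalleyStructure.CoxeterGeom Cfsg.Agent.Tits.Roots Cfsg.Agent.Tits.Core
  Cfsg.Agent.Tits.RootComb Cfsg.Agent.Nodes.Comb Cfsg.Agent.Nodes.Reps Cfsg.Agent.Nodes.BNOf
  Cfsg.Agent.Nodes.StabComb Cfsg.Agent.Nodes.Bruhat Cfsg.Agent.Nodes.LeviDec Cfsg.Agent.Nodes.SubComb
  Cfsg.Agent.Nodes.Sub Cfsg.Agent.Nodes.Unique Cfsg.Agent.Nodes.CardSup Cfsg.Agent.Nodes.LeviStd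
  Cfsg.Agent.OddHalf.SL.Index Cfsg.Agent.OddHalf.SL Cfsg.Agent.KFacts
open Cfsg.Lie Cfsg.Agent.ChevalleyStructure.RootVecTab Cfsg.Agent.ChevalleyStructure.RootVec
  Cfsg.Agent.ChevalleyStructure.Elts Cfsg.Agent.ChevalleyStructure Cfsg.Agent.Nodes.RGDChev
  Cfsg.Agent.ChevalleyStructure.CoxeterGeomTypes
open Cfsg.Agent.OddHalf.SL.Defs Cfsg.Agent.KFacts.Mult.Calc Cfsg.Agent.H65.Laced Cfsg.Agent.H850.Cod.Filt
open scoped commutatorElement

section

variable {I J : Type*} [Fintype I] [DecidableEq I] [Fintype J] [DecidableEq J] {A : I → I → ℤ} {A' : J → J → ℤ}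

/-- the coordinates of the Levi subsystem -/
abbrev io (f : J ↪ I) (c : J → ℤ) : I → ℤ := iota (fun j => sr (f j)) c

theorem io_apply (f : J ↪ I) (c : J → ℤ) (j : J) : io f c (f j) = c j := iota_levi_apply f c j

theorem io_apply_ne (f : J ↪ I) (c : J → ℤ) {k : I} (hk : ∀ j, f j ≠ k) : io f c k = 0 := iota_levi_apply_ne f c hk

theorem pairing_io (f : J ↪ I) (hA : ∀ i j, A (f i) (f j) = A' i j) (j : J) (c : J → ℤ) :
    pairing A (f j) (io f c) = pairing A' j c := by
  unfold pairing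
  symm
  refine Fintype.sum_of_injective f f.injective _ _ (fun i hi => ?_) (fun k => ?_)
  · rw [io_apply_ne f c fun j hj => hi ⟨j, hj⟩, mul_zero]
  · rw [io_apply, hA]

theorem bf_io (f : J ↪ I) (hA : ∀ i j, A (f i) (f j) = A' i j) (c d : J → ℤ) :
    Bf A (io f c) (io f d) = Bf A' c d := by
  unfold Bf
  symm
  refine Fintype.sum_of_injective f f.injective _ _ (fun i hi => ?_) (fun k => ?_)
  · rw [io_apply_ne f d fun j hj => hi ⟨j, hj⟩, zero_mul]
  · rw [io_apply, pairing_io f hA]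

end

/-- the system only depends on the values on `Φ` -/
theorem ssys_of {V F Y Y' : Type*} [AddCommGroup V] [Field F] [Group Y] [Group Y'] {B : V → V → ℤ} {Φ : Set V}
    {N : V → V → F} {e : V → F → Y} {e' : V → F → Y'} (g : Y' →* Y) (hg : Function.Injective g)
    (he : ∀ r ∈ Φ, ∀ t, g (e' r t) = e r t) (S : SSys B Φ N e) : SSys B Φ N e' where
  roots := S.roots
  add r hr a b := hg (by rw [map_mul, he r hr, he r hr, he r hr]; exact S.add r hr a b)
  inj r hr a ha := S.inj r hr a (by rw [← he r hr, ha, map_one])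
  ne := S.ne
  comm r hr s hs hrs a b := hg (by
    rw [map_commutatorElement, he r hr, he s hs, he _ (S.roots.add r hr s hs hrs)]
    exact S.comm r hr s hs hrs a b)
  one r hr s hs hrs a b := by
    show _ * _ = _ * _
    apply hg
    rw [map_mul, map_mul, he r hr, he s hs]
    exact (S.one r hr s hs hrs a b).eq

section

variable {I J W W' Y F : Type*} [Fintype I] [DecidableEq I] [Fintype J] [DecidableEq J] [Group W] [Group W'] [Group Y]
  [Field F] {M : CoxeterMatrix I} {M' : CoxeterMatrix J} {cs : CoxeterSystem M W} {cs' : CoxeterSystem M' W'}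
  {A : I → I → ℤ} {A' : J → J → ℤ} {h : IsCartan M A} {h' : IsCartan M' A'} {N : (I → ℤ) → (I → ℤ) → F}
  {x : (I → ℤ) → F → Y}

/-- **the system of a standard Levi subgroup** -/
theorem ssys_levi [Finite W] (f : J ↪ I) (hM : ∀ i j, M (f i) (f j) = M' i j) (hA : ∀ i j, A (f i) (f j) = A' i j)
    (hR : Roots (Bf A') {c | IsRoot cs' h' c})
    (S : SSys (Bf A) {x | IsRoot cs h x} N x) :
    SSys (Bf A') {c | IsRoot cs' h' c} (fun c d => N (io f c) (io f d)) (fun c => x (io f c)) := by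
  have key : ∀ c, IsRoot cs' h' c → IsRoot cs h (io f c) := fun c hc =>
    ((mem_RootsJ_range_iff' (cs := cs) (h := h) f hM hA cs' h').2 ⟨c, hc, rfl⟩).1
  refine ⟨hR, fun r hr a b => S.add _ (key r hr) a b, fun r hr a ha => S.inj _ (key r hr) a ha,
    fun r hr s hs hB => S.ne _ (key r hr) _ (key s hs) (by rw [bf_io f hA]; exact hB), fun r hr s hs hB a b => ?_,
    fun r hr s hs hB a b => S.one _ (key r hr) _ (key s hs) (by rw [bf_io f hA]; exact hB) a b⟩
  have h1 := S.comm _ (key r hr) _ (key s hs) (by rw [bf_io f hA]; exact hB) a b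
  rw [h1, io, io, ← map_add]

end

section main

variable {D : ChevalleyDatum} {l : ℕ} {M : CoxeterMatrix (Fin l)} (hp : IsType D l M) {K : Type v} [Field K]
  [Fintype K] {W : Type*} [Group W] (cs : CoxeterSystem M W)
  {l' : ℕ} {M' : CoxeterMatrix (Fin l')} {W' : Type*} [Group W'] (cs' : CoxeterSystem M' W')
  {A' : Fin l' → Fin l' → ℤ} (h' : IsCartan M' A') (f : Fin l' ↪ Fin l)

/-- the root groups of `D.group K` -/
abbrev XX (D : ChevalleyDatum) (l : ℕ) (K : Type v) [Field K] (x : Fin l → ℤ) : Subgroup ↥(D.group K) :=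
  (XV D l K x).subgroupOf (D.group K)

/-- the Levi subgroup (without the torus) -/
abbrev YJ (K : Type v) [Field K] (J : Set (Fin l)) : Subgroup ↥(D.group K) :=
  RGD.Sup (XX D l K) (RootsJ cs hp.isCartan J)

/-- the root elements of the Levi subgroup -/
noncomputable def xJ (K : Type v) [Field K] (c : Fin l' → ℤ) (t : K) : ↥(YJ hp cs K (Set.range f)) := by
  classical
  exact if hx : Mult.LacedE.eg (K := K) hp.inList l (io f c) t ∈ YJ hp cs K (Set.range f) then ⟨_, hx⟩ else 1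

theorem eg_mem_XX {x : Fin l → ℤ} (hx : IsRoot cs hp.isCartan x) (t : K) :
    Mult.LacedE.eg (K := K) hp.inList l x t ∈ XX D l K x :=
  (Mult.LacedE.mem_X hp cs hx _).2 ⟨t, rfl⟩

variable (hM : ∀ i j, M (f i) (f j) = M' i j) (hA : ∀ i j, cartanOf D l (f i) (f j) = A' i j)

include hM hA in
theorem io_mem [Finite W] {c : Fin l' → ℤ} (hc : IsRoot cs' h' c) :
    io f c ∈ RootsJ cs hp.isCartan (Set.range f) :=
  (mem_RootsJ_range_iff' (cs := cs) (h := hp.isCartan) f hM hA cs' h').2 ⟨c, hc, rfl⟩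

include hM hA in
theorem coe_xJ [Finite W] {c : Fin l' → ℤ} (hc : IsRoot cs' h' c) (t : K) :
    (xJ hp cs f K c t : ↥(D.group K)) = Mult.LacedE.eg (K := K) hp.inList l (io f c) t := by
  have h1 := io_mem hp cs cs' h' f hM hA hc
  have h2 : Mult.LacedE.eg (K := K) hp.inList l (io f c) t ∈ YJ hp cs K (Set.range f) :=
    RGD.le_Sup (X := XX D l K) h1 (eg_mem_XX hp cs h1.1 t)
  unfold xJ
  rw [dif_pos h2]

/-- the positive roots of the Levi subsystem -/
theorem finite_pos [Finite W'] : {c : Fin l' → ℤ | IsRoot cs' h' c ∧ 0 ≤ c}.Finite :=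
  (RGD.finite_roots (cs := cs') (h := h')).subset fun _ hx => hx.1

include hM hA in
/-- **splitting** -/
theorem exists_split [Finite W] [Finite W'] {p : ℕ} [Fact p.Prime] [CharP K p]
    (hR : Roots (Bf A') {c | IsRoot cs' h' c}) {N' : (Fin l' → ℤ) → (Fin l' → ℤ) → K}
    (S' : SSys (Bf A') {c | IsRoot cs' h' c} N' (xJ hp cs f K))
    (hlift : ∀ (E : Type u) [Group E] [Finite E] (π : E →* YJ hp cs K (Set.range f)), CE π →
      ∃ T : (Fin l' → ℤ) → K → E, SSys (Bf A') {c | IsRoot cs' h' c} N' T ∧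
        ∀ r ∈ {c | IsRoot cs' h' c}, ∀ a, π (T r a) = xJ hp cs f K r a) :
    ∃ UJ : Subgroup ↥(D.group K), UJ ≤ RGD.Sup (XX D l K) (RGD.Pos cs hp.isCartan) ∧
      Nat.card (RGD.Sup (XX D l K) (PosJ cs hp.isCartan (Set.range f))) ≤ Nat.card UJ ∧
      Split.{u} (YJ hp cs K (Set.range f)) UJ := by
  classical
  have R := rgd (K := K) hp cs p
  set P : Finset (Fin l' → ℤ) := (finite_pos cs' h').toFinset with hP
  have hPm : ∀ c, c ∈ P ↔ IsRoot cs' h' c ∧ 0 ≤ c := fun c => by rw [hP, Set.Finite.mem_toFinset]; rfl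
  have hpos : PosSet (Bf A') {c | IsRoot cs' h' c} (fun c => ∑ j, c j) P := by
    refine ⟨fun r hr => ((hPm r).1 hr).1, fun r hr s hs hB => (hPm _).2
      ⟨hR.add r ((hPm r).1 hr).1 s ((hPm s).1 hs).1 hB, add_nonneg ((hPm r).1 hr).2 ((hPm s).1 hs).2⟩,
      fun r hr => ?_, fun r s => by simp [Finset.sum_add_distrib]⟩
    obtain ⟨h1, h2⟩ := (hPm r).1 hr
    have h3 : r ≠ 0 := by
      rintro rfl
      have := hR.two 0 h1
      rw [hR.zero_left] at this
      omega
    obtain ⟨j, hj⟩ := Function.ne_iff.1 h3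
    refine Finset.sum_pos' (fun i _ => h2 i) ⟨j, Finset.mem_univ j, lt_of_le_of_ne (h2 j) (Ne.symm hj)⟩
  set UJ := gp (fun r a => (xJ hp cs f K r a : ↥(D.group K))) (P : Set (Fin l' → ℤ)) with hUJ
  have hle : RGD.Sup (XX D l K) (PosJ cs hp.isCartan (Set.range f)) ≤ UJ := by
    refine RGD.Sup_le fun y hy => ?_
    obtain ⟨c, hc, rfl⟩ := (mem_RootsJ_range_iff' (cs := cs) (h := hp.isCartan) f hM hA cs' h').1 ⟨hy.1, hy.2.2⟩
    have hc0 : 0 ≤ c := by
      intro j
      have h1 : (0 : ℤ) ≤ io f c (f j) := hy.2.1 (f j)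
      rw [io_apply] at h1
      exact h1
    intro g hg
    obtain ⟨t, rfl⟩ := (Mult.LacedE.mem_X hp cs hy.1 g).1 hg
    rw [← coe_xJ hp cs cs' h' f hM hA hc]
    exact mem_gp (T := fun r a => (xJ hp cs f K r a : ↥(D.group K))) (Finset.mem_coe.2 ((hPm c).2 ⟨hc, hc0⟩)) t
  have hinj : ∀ c ∈ P, io f c ∈ PosJ cs hp.isCartan (Set.range f) := by
    intro c hc
    obtain ⟨h1, h2⟩ := (hPm c).1 hc
    have h3 := io_mem hp cs cs' h' f hM hA h1
    refine ⟨h3.1, fun k => ?_, h3.2⟩
    by_cases hk : ∃ j, f j = k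
    · obtain ⟨j, rfl⟩ := hk
      rw [io_apply]
      exact h2 j
    · push Not at hk
      rw [io_apply_ne f c hk]
      exact le_rfl
  have hcard : Nat.card K ^ P.card ≤ Nat.card (RGD.Sup (XX D l K) (PosJ cs hp.isCartan (Set.range f))) := by
    have hfin : (PosJ cs hp.isCartan (Set.range f)).Finite :=
      (RGD.finite_roots (cs := cs) (h := hp.isCartan)).subset fun _ hx => hx.1
    set s : Finset (Fin l → ℤ) := hfin.toFinset with hs
    have hsc : (s : Set (Fin l → ℤ)) = PosJ cs hp.isCartan (Set.range f) := hfin.coe_toFinset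
    have hcl : Closed cs hp.isCartan (PosJ cs hp.isCartan (Set.range f)) := by
      intro a ha b hb z hz
      have h1 : 0 ≤ z := RGD.nonneg_of_btwn ha.2.1 hb.2.1 hz
      refine ⟨hz.1, h1, fun k hk => ?_⟩
      obtain ⟨-, m, a', b', hm, -, -, e⟩ := hz
      have e1 := congrFun e k
      simp only [Pi.smul_apply, Pi.add_apply, smul_eq_mul, ha.2.2 k hk, hb.2.2 k hk, mul_zero, add_zero] at e1
      rcases mul_eq_zero.1 e1 with h2 | h2
      · omega
      · exact h2
    have h1 := card_sup R (s := s) (by rw [hsc]; exact fun x hx => ⟨hx.1, hx.2.1⟩) (by rw [hsc]; exact hcl)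
    rw [hsc] at h1
    have h2 : ∏ x ∈ s, Nat.card ↥(XX D l K x) = Fintype.card K ^ s.card := by
      rw [← Finset.prod_const]
      refine Finset.prod_congr rfl fun x hx => H62.PPChev.card_X hp cs ?_
      have hx' : x ∈ PosJ cs hp.isCartan (Set.range f) := by rw [← hsc]; exact hx
      exact hx'.1
    rw [h1, h2, Nat.card_eq_fintype_card]
    refine Nat.pow_le_pow_right Fintype.card_pos ?_
    refine Finset.card_le_card_of_injOn (fun c => io f c) (fun c hc => ?_) (fun a _ b _ e => ?_)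
    · rw [hsc]
      exact hinj c hc
    · funext j
      have := congrFun e (f j)
      simp only [io_apply] at this
      exact this
  refine ⟨UJ, ?_, Subgroup.card_le_of_le hle, split hpos hlift (hcard.trans (Subgroup.card_le_of_le hle))⟩
  refine gp_le fun r hr a => ?_
  have h1 := (hPm r).1 hr
  have h2 := hinj r hr
  show (xJ hp cs f K r a : ↥(D.group K)) ∈ _
  rw [coe_xJ hp cs cs' h' f hM hA h1.1]
  exact RGD.le_Sup (X := XX D l K) (S := RGD.Pos cs hp.isCartan) ⟨h2.1, h2.2.1⟩ (eg_mem_XX hp cs h2.1 a)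

end main

end Cfsg.Agent.H850.Cod.Levi
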