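import Cfsg.Agent.H850.Cod.Bad
import Cfsg.Agent.KFacts.Mult.LacedRGD

/-!
# Lifting a simply laced system to central extensions (helper850, S3539)

`lift_of_root` : all orthogonal pairs are `Good` or `Bad` as soon as those `(r₀, s)` are, for one root `r₀`.
-/

set_option autoImplicit false
set_option linter.unusedSectionVars false

namespace Cfsg.Agent.H850.Cod.Lift

open CoxeterSystem Cfsg.Agent.ChevalleyStructure.CoxeterGeom Cfsg.Agent.Tits.Roots Cfsg.Agent.Tits.Core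
  Cfsg.Agent.Tits.RootComb Cfsg.Agent.Nodes.Comb Cfsg.Agent.Nodes.Reps Cfsg.Agent.Nodes.BNOf
  Cfsg.Agent.OddHalf.SL.Index Cfsg.Agent.OddHalf.SL Cfsg.Agent.KFacts
open Cfsg.Agent.OddHalf.SL.Defs Cfsg.Agent.KFacts.Mult.Calc Cfsg.Agent.H65.Laced Cfsg.Agent.H850.Cod.BadPair
  Cfsg.Agent.KFacts.Mult.LacedRGD

variable {I W : Type*} [Fintype I] [DecidableEq I] [Group W] [Finite W] {M : CoxeterMatrix I} {cs : CoxeterSystem M W}
  {A : I → I → ℤ} {h : IsCartan M A}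

section

variable (h4 : ∀ i j, M i j ≠ 4) (h6 : ∀ i j, M i j ≠ 6)

include h4 h6

theorem good_act (w : W) {r s : I → ℤ} (hg : Good (Bf A) {x | IsRoot cs h x} r s) :
    Good (Bf A) {x | IsRoot cs h x} (rep cs h w r) (rep cs h w s) := by
  obtain ⟨d, hd, h1, h2⟩ := hg
  exact ⟨rep cs h w d, IsRoot.act hd w, by rw [bf_rep h4 h6]; exact h1, by rw [bf_rep h4 h6]; exact h2⟩

theorem bad_act (w : W) {r s : I → ℤ} (hb : Bad (Bf A) {x | IsRoot cs h x} r s) :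
    Bad (Bf A) {x | IsRoot cs h x} (rep cs h w r) (rep cs h w s) := by
  obtain ⟨ρ, hρ, u, hu, h1, h2, h3, h4', h5, g1, g2⟩ := hb
  refine ⟨rep cs h w ρ, IsRoot.act hρ w, rep cs h w u, IsRoot.act hu w, ?_, ?_, ?_, ?_, ?_, ?_, ?_⟩
  · rw [bf_rep h4 h6]; exact h1
  · rw [bf_rep h4 h6]; exact h2
  · rw [bf_rep h4 h6]; exact h3
  · rw [bf_rep h4 h6]; exact h4'
  · rw [bf_rep h4 h6]; exact h5
  · have := good_act h4 h6 w g1
    rwa [map_add] at this
  · have := good_act h4 h6 w g2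
    rwa [map_add, map_sub, map_sub] at this

end

/-- the condition on the orthogonal pairs `(r, s)` -/
def PP (cs : CoxeterSystem M W) (h : IsCartan M A) (r : I → ℤ) : Prop :=
  ∀ s, IsRoot cs h s → Bf A r s = 0 → Good (Bf A) {x | IsRoot cs h x} r s ∨ Bad (Bf A) {x | IsRoot cs h x} r s

theorem PP.step (h4 : ∀ i j, M i j ≠ 4) (h6 : ∀ i j, M i j ≠ 6) {r s : I → ℤ} (hr : IsRoot cs h r)
    (hs : IsRoot cs h s) (hrs : Bf A r s = 1) (hQ : PP cs h r) : PP cs h s := by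
  obtain ⟨w, rfl⟩ := exists_refl h4 h6 hr hs hrs
  intro t ht h0
  have h1 : Bf A r (rep cs h w⁻¹ t) = 0 := by
    rw [← bf_rep (cs := cs) (h := h) h4 h6 w, rep_apply_inv]; exact h0
  rcases hQ _ (ht.act _) h1 with h2 | h2
  · left
    have := good_act h4 h6 w h2
    rwa [rep_apply_inv] at this
  · right
    have := bad_act h4 h6 w h2
    rwa [rep_apply_inv] at this

variable {K L X : Type*} [Field K] [Group L] [Group X] {N : (I → ℤ) → (I → ℤ) → K} {x : (I → ℤ) → K → L}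

/-- **lifting** -/
theorem lift_of_root (h4 : ∀ i j, M i j ≠ 4) (h6 : ∀ i j, M i j ≠ 6)
    (hirr : ∀ J : Set I, J.Nonempty → Jᶜ.Nonempty → ∃ i ∈ J, ∃ j ∈ Jᶜ, M i j ≠ 2) (h3 : 3 ≤ Fintype.card I)
    (S : SSys (Bf A) {x | IsRoot cs h x} N x) {r₀ : I → ℤ} (hr₀ : IsRoot cs h r₀) (hQ : PP cs h r₀)
    {π : X →* L} (hπ : CE π) :
    ∃ T : (I → ℤ) → K → X, SSys (Bf A) {x | IsRoot cs h x} N T ∧
      ∀ r ∈ {x | IsRoot cs h x}, ∀ a, π (T r a) = x r a := by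
  have hR := S.roots
  have h3' : Three (Bf A) {x | IsRoot cs h x} := Cfsg.Agent.OddHalf.SL.Index.three h4 h6 hirr h3
  have hne : ∀ r ∈ {x | IsRoot cs h x}, ∃ s ∈ {x | IsRoot cs h x}, Bf A s r = 1 := fun r hr =>
    exists_one h4 h6 hirr h3 hr
  have hall : ∀ r, IsRoot cs h r → PP cs h r := fun r hr =>
    ind h4 h6 hirr (by omega) hr₀ hQ (fun r s hr hs hrs hq => hq.step h4 h6 hr hs hrs) hr
  refine S.exists_lift hπ h3' (fun r hr s hs h0 a b => ?_) hne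
  rcases h0.lt_or_eq with h1 | h1
  · exact S.lc_pos hπ h3' hne hr hs h1 a b
  · rcases hall r hr s hs h1.symm with ⟨d, hd, h2, h4'⟩ | h2
    · exact S.lc_orth hπ hr hs h1.symm hd h2 h4' a b
    · exact lc_bad S hπ hr hs h1.symm h2 a b

end Cfsg.Agent.H850.Cod.Lift
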