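import Cfsg.Agent.H850.Cod.Core
import Cfsg.Agent.H62.PPIdx
import Cfsg.Agent.H1.Over
import Cfsg.Agent.KFacts.RgdSyl

/-!
# Overgroups of a Sylow `p`-subgroup of small index in a group of Lie type of characteristic `p` (helper850, S3539)

* `card_U` : `|U| = |U_J| |V_J|`
* `final` : no overgroup `S ≠ Y` of `U` of index less than `m` such that `m` divides `|Y : UJ|` for all `UJ ≤ YJ ≤ S` with
  `Split YJ UJ`, if `m² ≤ Q` is a power of `p` and `Q ≤ |V_J|²` for most maximal `J`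
-/

set_option autoImplicit false
set_option linter.unusedSectionVars false

universe u

namespace Cfsg.Agent.H850.Cod.Par

open CoxeterSystem Cfsg.Agent.ChevalleyStructure.CoxeterGeom Cfsg.Agent.Tits.Roots Cfsg.Agent.Tits.Core
  Cfsg.Agent.Nodes.Reps Cfsg.Agent.Nodes.BNOf Cfsg.Agent.Nodes.Bruhat Cfsg.Agent.Nodes.LeviDec
  Cfsg.Agent.Nodes.StabComb Cfsg.Agent.Nodes.Unique Cfsg.Agent.Nodes.CardSup Cfsg.Agent.H62.PPIdx
  Cfsg.Agent.H1.Over

variable {I W Y : Type*} [Fintype I] [DecidableEq I] [Group W] [Group Y] {M : CoxeterMatrix I}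
  {cs : CoxeterSystem M W} {A : I → I → ℤ} {h : IsCartan M A} {p : ℕ} {T : Subgroup Y} {n : I → Y}
  {X : (I → ℤ) → Subgroup Y}

theorem closed_PosJ (J : Set I) : Closed cs h (PosJ cs h J) := by
  intro a ha b hb z hz
  have h1 : 0 ≤ z := RGD.nonneg_of_btwn ha.2.1 hb.2.1 hz
  refine ⟨hz.1, h1, fun k hk => ?_⟩
  obtain ⟨-, m, a', b', hm, -, -, e⟩ := hz
  have e1 := congrFun e k
  simp only [Pi.smul_apply, Pi.add_apply, smul_eq_mul, ha.2.2 k hk, hb.2.2 k hk, mul_zero, add_zero] at e1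
  rcases mul_eq_zero.1 e1 with h2 | h2
  · omega
  · exact h2

variable (R : RGD cs h p T n X)

include R

theorem card_Sup [Finite W] {s : Finset (I → ℤ)} {S : Set (I → ℤ)} (hs : (s : Set (I → ℤ)) = S)
    (hS : S ⊆ RGD.Pos cs h) (hc : Closed cs h S) : Nat.card (RGD.Sup X S) = ∏ x ∈ s, Nat.card (X x) := by
  subst hs
  exact card_sup R hS hc

theorem card_U [Finite W] (J : Set I) : Nat.card (RGD.Sup X (RGD.Pos cs h)) =
    Nat.card (RGD.Sup X (PosJ cs h J)) * Nat.card (VJ cs h X J) := by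
  classical
  have hf0 : {x | IsRoot cs h x}.Finite := RGD.finite_roots (cs := cs) (h := h)
  have hfP : (RGD.Pos cs h).Finite := hf0.subset fun _ hx => hx.1
  have hfJ : (PosJ cs h J).Finite := hf0.subset fun _ hx => hx.1
  have hfN : (NotJ cs h J).Finite := hf0.subset fun _ hx => hx.1
  have e0 := card_Sup R hfP.coe_toFinset subset_rfl (by
    intro a ha b hb z hz
    exact ⟨hz.1, RGD.nonneg_of_btwn ha.2 hb.2 hz⟩)
  have e1 := card_Sup R hfJ.coe_toFinset (fun x hx => ⟨hx.1, hx.2.1⟩) (closed_PosJ J)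
  have e2 := card_Sup R hfN.coe_toFinset (fun x hx => ⟨hx.1, hx.2.1⟩) (closed_NotJ J)
  have hd : Disjoint hfJ.toFinset hfN.toFinset := by
    rw [Finset.disjoint_left]
    intro x hx hx'
    rw [Set.Finite.mem_toFinset] at hx hx'
    obtain ⟨-, -, k, hk, hk0⟩ := hx'
    have := hx.2.2 k hk
    omega
  have hu : hfP.toFinset = hfJ.toFinset ∪ hfN.toFinset := by
    ext x
    rw [Finset.mem_union, Set.Finite.mem_toFinset, Set.Finite.mem_toFinset, Set.Finite.mem_toFinset]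
    constructor
    · rintro ⟨h1, h2⟩
      by_cases h3 : ∀ k, k ∉ J → x k = 0
      · exact Or.inl ⟨h1, h2, h3⟩
      · push Not at h3
        obtain ⟨k, hk, hk0⟩ := h3
        exact Or.inr ⟨h1, h2, k, hk, lt_of_le_of_ne (h2 k) (Ne.symm hk0)⟩
    · rintro (h1 | h1)
      · exact ⟨h1.1, h1.2.1⟩
      · exact ⟨h1.1, h1.2.1⟩
  rw [e0, e1, hu, Finset.prod_union hd, ← e2]
  rfl

/-- **the parabolic argument** -/
theorem final [Finite W] [Finite Y] [hpp : Fact p.Prime] (hG : Nodes.RGDLib.G1 cs h X = ⊤) {S : Subgroup Y}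
    (hU : RGD.Sup X (RGD.Pos cs h) ≤ S) (hS : S ≠ ⊤) {m k Q : ℕ} (hm : m = p ^ k) (hQ : m ^ 2 ≤ Q) (hidx : S.index < m)
    (hsp : ∀ YJ UJ : Subgroup Y, YJ ≤ S → Split.{u} YJ UJ → m ∣ UJ.index)
    (hnode : ∀ i, Q ≤ Nat.card (VJ cs h X {i}ᶜ) ^ 2 ∨
      ((∀ j, j ≠ i → Q ≤ Nat.card (VJ cs h X {i, j}ᶜ) ^ 2) ∧ ∃ UJ : Subgroup Y, UJ ≤ RGD.Sup X (RGD.Pos cs h) ∧
        Nat.card (RGD.Sup X (PosJ cs h {i}ᶜ)) ≤ Nat.card UJ ∧ Split.{u} (RGD.Sup X (RootsJ cs h {i}ᶜ)) UJ)) :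
    False := by
  have hGG : GG cs h T X = ⊤ := by
    rw [eq_top_iff, ← hG]
    exact le_sup_right
  set J := JH X S with hJdef
  have hPJ := le_PJ R hU (by rw [hGG]; exact le_top)
  have hV : Nat.card (VJ cs h X J) < m := (card_VJ_le_index R hPJ).trans_lt hidx
  have key : ∀ J' : Set I, J ⊆ J' → ¬ Q ≤ Nat.card (VJ cs h X J') ^ 2 := by
    intro J' hJ' h1
    have h2 : Nat.card (VJ cs h X J') ≤ Nat.card (VJ cs h X J) := Subgroup.card_le_of_le (VJ_anti R hJ')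
    have h3 : Nat.card (VJ cs h X J') ^ 2 < m ^ 2 := Nat.pow_lt_pow_left (h2.trans_lt hV) two_ne_zero
    omega
  have hJu : J ≠ Set.univ := by
    intro h1
    apply hS
    rw [eq_top_iff, ← hG]
    refine le_trans ?_ (rootsJ_le R hU)
    rw [← hJdef, h1]
    exact RGD.Sup_mono fun x hx => ⟨hx, fun k hk => absurd (Set.mem_univ k) hk⟩
  obtain ⟨i, hi⟩ := (Set.ne_univ_iff_exists_notMem _).1 hJu
  have hi1 : J ⊆ {i}ᶜ := by
    intro j hj
    rw [Set.mem_compl_iff, Set.mem_singleton_iff]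
    rintro rfl
    exact hi hj
  rcases hnode i with h1 | ⟨h1, UJ, h2, h3, h4⟩
  · exact key _ hi1 h1
  have hJi : J = {i}ᶜ := by
    refine Set.Subset.antisymm hi1 fun j hj => ?_
    by_contra hj'
    refine key {i, j}ᶜ (fun a ha => ?_) (h1 j hj)
    rw [Set.mem_compl_iff, Set.mem_insert_iff, Set.mem_singleton_iff]
    rintro (rfl | rfl)
    · exact hi ha
    · exact hj' ha
  have h5 : m ∣ UJ.index := hsp _ UJ (by rw [← hJi]; exact rootsJ_le R hU) h4
  have h6 := KFacts.RgdSyl.not_dvd_relIndex R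
  rw [hGG, Subgroup.relIndex_top_right] at h6
  have h7 : m ∣ UJ.relIndex (RGD.Sup X (RGD.Pos cs h)) := by
    rw [← Subgroup.relIndex_mul_index h2] at h5
    refine Nat.Coprime.dvd_of_dvd_mul_right ?_ h5
    rw [hm]
    exact Nat.Coprime.pow_left _ ((Nat.Prime.coprime_iff_not_dvd hpp.out).2 h6)
  have h8 : UJ.relIndex (RGD.Sup X (RGD.Pos cs h)) * Nat.card UJ = Nat.card (RGD.Sup X (RGD.Pos cs h)) := by
    rw [mul_comm, ← Subgroup.card_mul_index (UJ.subgroupOf (RGD.Sup X (RGD.Pos cs h)))]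
    rw [Nat.card_congr (Subgroup.subgroupOfEquivOfLe h2).toEquiv]
    rfl
  have h9 : 0 < UJ.relIndex (RGD.Sup X (RGD.Pos cs h)) := by
    refine Nat.pos_of_ne_zero fun h0 => ?_
    rw [h0, zero_mul] at h8
    exact Nat.card_pos.ne h8
  have h10 : m ≤ UJ.relIndex (RGD.Sup X (RGD.Pos cs h)) := Nat.le_of_dvd h9 h7
  have h11 := card_U R {i}ᶜ
  rw [← h8, ← hJi] at h11
  rw [← hJi] at h3
  have h12 : 0 < Nat.card (RGD.Sup X (PosJ cs h J)) := Nat.card_pos
  have h13 : Nat.card (RGD.Sup X (PosJ cs h J)) * m ≤ Nat.card (RGD.Sup X (PosJ cs h J)) * Nat.card (VJ cs h X J) := by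
    rw [← h11, mul_comm]
    exact Nat.mul_le_mul h10 h3
  have h14 := Nat.le_of_mul_le_mul_left h13 h12
  omega

end Cfsg.Agent.H850.Cod.Par
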